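import Cfsg.Agent.H892.EP.Good
import Cfsg.Agent.H583.BR.Borel

/-!
# S4929 [TA-PSL] (helper583, task 5307)

`Good p r SL_d(F)` implies `Good p r SL_n(F)` (`d ≤ n`) and `Good p r PSL_n(F)` (`p ∤ q - 1`): Harish-Chandra induction
(`Good.of_sub`) from the subgroup of the matrices `[[A, B], [0, 1]]`; the condition on the Sylow subgroups follows from the
Bruhat decomposition.

* `exists_sylow_sl` : the unitriangular matrices are a Sylow subgroup of `SL_n(F)`;
* `good_sl_of_le` : `SL_d` to `SL_(d+m)`;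
* `good_psl`.
-/

set_option autoImplicit false
set_option linter.unusedSectionVars false

namespace Cfsg.Agent.H583.EP

open scoped MatrixGroups
open Matrix Cfsg Cfsg.Agent.H892.EP
open Cfsg.Agent.H139.Bruhat Cfsg.Agent.H139.Young
open Cfsg.Agent.ClassicalGeometry.AutPSL.Root Cfsg.Agent.ClassicalGeometry.AutPSL.SylowU

variable {F : Type*} [Field F]

/-- unitriangular matrices -/
def IsUni {n : ℕ} (M : Matrix (Fin n) (Fin n) F) : Prop := ∀ i j : Fin n, j ≤ i → M i j = if i = j then 1 else 0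

theorem exists_sylow_sl (n : ℕ) [Fintype F] (r : ℕ) [Fact r.Prime] [CharP F r] :
    ∃ S : Sylow r (SpecialLinearGroup (Fin n) F), (S : Subgroup _) = upper n F := by
  obtain ⟨k, hp, hk⟩ := FiniteField.card F r
  have hpg : IsPGroup r (upper n F) := by
    apply IsPGroup.of_card (n := k * (n * (n - 1) / 2))
    rw [card_upper, hk, pow_mul]
  obtain ⟨S, hS⟩ := hpg.exists_le_sylow
  refine ⟨S, (Subgroup.eq_of_le_of_card_ge hS ?_).symm⟩
  rw [card_upper]
  have : Finite (Matrix.SpecialLinearGroup (Fin n) F) := inferInstance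
  obtain ⟨P⟩ : Nonempty (Sylow r (GL (Fin n) F)) := inferInstance
  have h1 := Cfsg.Agent.S0263.result (F := F) rfl r n P
  rw [← h1]
  have h2 : Nat.card S ∣ Nat.card (GL (Fin n) F) := by
    have e1 : Nat.card S ∣ Nat.card (Matrix.SpecialLinearGroup (Fin n) F) :=
      Subgroup.card_subgroup_dvd_card S.toSubgroup
    have e3 : Nat.card (Matrix.SpecialLinearGroup (Fin n) F) ∣ Nat.card (GL (Fin n) F) :=
      Subgroup.card_dvd_of_injective _ Matrix.SpecialLinearGroup.toGL_injective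
    exact e1.trans e3
  have h3 : Nat.card S = r ^ (Nat.card (Matrix.SpecialLinearGroup (Fin n) F)).factorization r :=
    Sylow.card_eq_multiplicity S
  have h4 : Nat.card P = r ^ (Nat.card (GL (Fin n) F)).factorization r :=
    Sylow.card_eq_multiplicity P
  change Nat.card S ≤ Nat.card P
  rw [h3] at h2 ⊢
  rw [h4]
  apply Nat.pow_le_pow_right hp.pos
  exact (hp.pow_dvd_iff_le_factorization (Nat.card_pos).ne').1 h2

theorem isUni_conj {n : ℕ} {b x : GL (Fin n) F} (hb : b ∈ upperTriangularGL n F)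
    (hx : IsUni (x : Matrix (Fin n) (Fin n) F)) :
    IsUni ((b * x * b⁻¹ : GL (Fin n) F) : Matrix (Fin n) (Fin n) F) := by
  have hx1 : x ∈ upperTriangularGL n F := by
    intro i j hij
    have hij' : j < i := hij
    rw [hx i j hij'.le, if_neg hij'.ne']
  have h0 : b * x * b⁻¹ ∈ upperTriangularGL n F := mul_mem (mul_mem hb hx1) (inv_mem hb)
  have h1 : ∀ i j : Fin n, j < i → (b : Matrix (Fin n) (Fin n) F) i j = 0 := fun i j h => hb h
  have h2 : ∀ i j : Fin n, j < i → (x : Matrix (Fin n) (Fin n) F) i j = 0 := fun i j h => hx1 h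
  have h3 : ∀ i j : Fin n, j < i → ((b⁻¹ : GL (Fin n) F) : Matrix (Fin n) (Fin n) F) i j = 0 :=
    fun i j h => inv_mem hb h
  have h4 : ∀ i j : Fin n, j < i → ((b : Matrix (Fin n) (Fin n) F) * (x : Matrix (Fin n) (Fin n) F)) i j = 0 :=
    fun i j hij => (mul_mem hb hx1 : b * x ∈ upperTriangularGL n F) hij
  have h5 : (b : Matrix (Fin n) (Fin n) F) * ((b⁻¹ : GL (Fin n) F) : Matrix (Fin n) (Fin n) F) = 1 := by
    rw [← Units.val_mul, mul_inv_cancel, Units.val_one]
  intro i j hij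
  rcases hij.lt_or_eq with h | h
  · rw [if_neg (ne_of_gt h)]
    exact h0 h
  · subst h
    rw [if_pos rfl]
    change ((b : Matrix (Fin n) (Fin n) F) * (x : Matrix (Fin n) (Fin n) F) *
      ((b⁻¹ : GL (Fin n) F) : Matrix (Fin n) (Fin n) F)) j j = 1
    rw [Cfsg.Agent.H583.BR.diag_mul_of_upper h4 h3, Cfsg.Agent.H583.BR.diag_mul_of_upper h1 h2, hx j j le_rfl,
      if_pos rfl, mul_one, ← Cfsg.Agent.H583.BR.diag_mul_of_upper h1 h3, h5, one_apply_eq]

/-- conjugation by an element of `GL_n` -/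
def conjSL {n : ℕ} (c : GL (Fin n) F) : SpecialLinearGroup (Fin n) F →* SpecialLinearGroup (Fin n) F where
  toFun v := ⟨(c : Matrix (Fin n) (Fin n) F) * (v : Matrix (Fin n) (Fin n) F) *
    ((c⁻¹ : GL (Fin n) F) : Matrix (Fin n) (Fin n) F), by rw [det_units_conj]; exact v.2⟩
  map_one' := by
    apply Subtype.ext
    change (c : Matrix (Fin n) (Fin n) F) * (1 : Matrix (Fin n) (Fin n) F) *
      ((c⁻¹ : GL (Fin n) F) : Matrix (Fin n) (Fin n) F) = 1
    rw [mul_one, ← Units.val_mul, mul_inv_cancel, Units.val_one]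
  map_mul' u v := by
    apply Subtype.ext
    change (c : Matrix (Fin n) (Fin n) F) * ((u : Matrix (Fin n) (Fin n) F) * (v : Matrix (Fin n) (Fin n) F)) *
      ((c⁻¹ : GL (Fin n) F) : Matrix (Fin n) (Fin n) F) =
      ((c : Matrix (Fin n) (Fin n) F) * (u : Matrix (Fin n) (Fin n) F) *
      ((c⁻¹ : GL (Fin n) F) : Matrix (Fin n) (Fin n) F)) * ((c : Matrix (Fin n) (Fin n) F) *
      (v : Matrix (Fin n) (Fin n) F) * ((c⁻¹ : GL (Fin n) F) : Matrix (Fin n) (Fin n) F))
    have h5 : ((c⁻¹ : GL (Fin n) F) : Matrix (Fin n) (Fin n) F) * (c : Matrix (Fin n) (Fin n) F) = 1 := by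
      rw [← Units.val_mul, inv_mul_cancel, Units.val_one]
    calc _ = (c : Matrix (Fin n) (Fin n) F) * (u : Matrix (Fin n) (Fin n) F) * 1 * (v : Matrix (Fin n) (Fin n) F) *
        ((c⁻¹ : GL (Fin n) F) : Matrix (Fin n) (Fin n) F) := by simp only [mul_one, mul_assoc]
      _ = _ := by rw [← h5]; simp only [mul_assoc]

theorem toGL_conjSL {n : ℕ} (c : GL (Fin n) F) (v : SpecialLinearGroup (Fin n) F) :
    SpecialLinearGroup.toGL (conjSL c v) = c * SpecialLinearGroup.toGL v * c⁻¹ := by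
  apply Units.ext
  rfl

theorem conjSL_mul {n : ℕ} (c c' : GL (Fin n) F) (v : SpecialLinearGroup (Fin n) F) :
    conjSL (c * c') v = conjSL c (conjSL c' v) := by
  apply SpecialLinearGroup.toGL_injective
  rw [toGL_conjSL, toGL_conjSL, toGL_conjSL]
  group

theorem conjSL_surjective {n : ℕ} (c : GL (Fin n) F) : Function.Surjective (conjSL c) := by
  intro v
  refine ⟨conjSL c⁻¹ v, ?_⟩
  rw [← conjSL_mul, mul_inv_cancel]
  apply SpecialLinearGroup.toGL_injective
  rw [toGL_conjSL]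
  group

/-! ### Blocks -/

section blk

variable {d m : ℕ}

/-- block form -/
def bl (M : Matrix (Fin (d + m)) (Fin (d + m)) F) : Matrix (Fin d ⊕ Fin m) (Fin d ⊕ Fin m) F :=
  M.submatrix finSumFinEquiv finSumFinEquiv

theorem bl_mul (M N : Matrix (Fin (d + m)) (Fin (d + m)) F) : bl (M * N) = bl M * bl N :=
  (submatrix_mul_equiv M N _ _ _).symm

theorem bl_one : bl (1 : Matrix (Fin (d + m)) (Fin (d + m)) F) = 1 := submatrix_one_equiv _

theorem det_bl (M : Matrix (Fin (d + m)) (Fin (d + m)) F) : (bl M).det = M.det := det_submatrix_equiv_self _ _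

theorem bl_mul₂₁ {M N : Matrix (Fin (d + m)) (Fin (d + m)) F} (hM : (bl M).toBlocks₂₁ = 0)
    (hN : (bl N).toBlocks₂₁ = 0) : (bl (M * N)).toBlocks₂₁ = 0 := by
  have e1 := (fromBlocks_toBlocks (bl M)).symm
  have e2 := (fromBlocks_toBlocks (bl N)).symm
  rw [hM] at e1
  rw [hN] at e2
  rw [bl_mul, e1, e2, fromBlocks_multiply, toBlocks_fromBlocks₂₁, Matrix.zero_mul, Matrix.mul_zero, add_zero]

theorem bl_mul₁₁ {M N : Matrix (Fin (d + m)) (Fin (d + m)) F} (hN : (bl N).toBlocks₂₁ = 0) :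
    (bl (M * N)).toBlocks₁₁ = (bl M).toBlocks₁₁ * (bl N).toBlocks₁₁ := by
  obtain ⟨A, B, C, D, e1⟩ : ∃ A B C D, bl M = fromBlocks A B C D := ⟨_, _, _, _, (fromBlocks_toBlocks (bl M)).symm⟩
  obtain ⟨A', B', C', D', e2⟩ : ∃ A B C D, bl N = fromBlocks A B C D :=
    ⟨_, _, _, _, (fromBlocks_toBlocks (bl N)).symm⟩
  rw [e2, toBlocks_fromBlocks₂₁] at hN
  rw [bl_mul, e1, e2, fromBlocks_multiply, toBlocks_fromBlocks₁₁, toBlocks_fromBlocks₁₁, toBlocks_fromBlocks₁₁, hN,
    Matrix.mul_zero, add_zero]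

theorem bl_mul₂₂ {M N : Matrix (Fin (d + m)) (Fin (d + m)) F} (hM : (bl M).toBlocks₂₁ = 0) :
    (bl (M * N)).toBlocks₂₂ = (bl M).toBlocks₂₂ * (bl N).toBlocks₂₂ := by
  obtain ⟨A, B, C, D, e1⟩ : ∃ A B C D, bl M = fromBlocks A B C D := ⟨_, _, _, _, (fromBlocks_toBlocks (bl M)).symm⟩
  obtain ⟨A', B', C', D', e2⟩ : ∃ A B C D, bl N = fromBlocks A B C D :=
    ⟨_, _, _, _, (fromBlocks_toBlocks (bl N)).symm⟩
  rw [e1, toBlocks_fromBlocks₂₁] at hM
  rw [bl_mul, e1, e2, fromBlocks_multiply, toBlocks_fromBlocks₂₂, toBlocks_fromBlocks₂₂, toBlocks_fromBlocks₂₂, hM,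
    Matrix.zero_mul, zero_add]

theorem bl_upper {b : GL (Fin (d + m)) F} (hb : b ∈ upperTriangularGL (d + m) F) :
    (bl (b : Matrix (Fin (d + m)) (Fin (d + m)) F)).toBlocks₂₁ = 0 := by
  ext i j
  apply hb
  show finSumFinEquiv (Sum.inl j) < finSumFinEquiv (Sum.inr i)
  rw [finSumFinEquiv_apply_left, finSumFinEquiv_apply_right, Fin.lt_def, Fin.val_castAdd, Fin.val_natAdd]
  omega

theorem bl_one₂₁ : (bl (1 : Matrix (Fin (d + m)) (Fin (d + m)) F)).toBlocks₂₁ = 0 := by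
  rw [bl_one, ← fromBlocks_one, toBlocks_fromBlocks₂₁]

theorem bl_one₁₁ : (bl (1 : Matrix (Fin (d + m)) (Fin (d + m)) F)).toBlocks₁₁ = 1 := by
  rw [bl_one, ← fromBlocks_one, toBlocks_fromBlocks₁₁]

theorem bl_one₂₂ : (bl (1 : Matrix (Fin (d + m)) (Fin (d + m)) F)).toBlocks₂₂ = 1 := by
  rw [bl_one, ← fromBlocks_one, toBlocks_fromBlocks₂₂]

theorem det_of_bl {M : Matrix (Fin (d + m)) (Fin (d + m)) F} (h1 : (bl M).toBlocks₂₁ = 0)
    (h2 : (bl M).toBlocks₂₂ = 1) : ((bl M).toBlocks₁₁).det = M.det := by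
  have e1 := (fromBlocks_toBlocks (bl M)).symm
  rw [h1, h2] at e1
  rw [← det_bl M, e1, det_fromBlocks_zero₂₁, det_one, mul_one, toBlocks_fromBlocks₁₁]

/-- `[[A, 0], [0, 1]]` -/
def ext (m : ℕ) (A : Matrix (Fin d) (Fin d) F) : Matrix (Fin (d + m)) (Fin (d + m)) F :=
  (fromBlocks A 0 0 1).submatrix finSumFinEquiv.symm finSumFinEquiv.symm

theorem bl_ext (A : Matrix (Fin d) (Fin d) F) : bl (ext m A) = fromBlocks A 0 0 1 := by
  unfold bl ext
  rw [submatrix_submatrix, Equiv.symm_comp_self, submatrix_id_id]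

/-- `[[A, 0], [0, 1]]` in `SL` -/
def extSL (m : ℕ) (A : SpecialLinearGroup (Fin d) F) : SpecialLinearGroup (Fin (d + m)) F :=
  ⟨ext m A.1, by rw [← det_bl, bl_ext, det_fromBlocks_zero₂₁, det_one, mul_one]; exact A.2⟩

theorem ext_apply_inl (A : Matrix (Fin d) (Fin d) F) (a b : Fin d) :
    ext m A (finSumFinEquiv (Sum.inl a)) (finSumFinEquiv (Sum.inl b)) = A a b := by
  unfold ext
  rw [submatrix_apply, Equiv.symm_apply_apply, Equiv.symm_apply_apply, fromBlocks_apply₁₁]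

theorem ext_apply_of_left (A : Matrix (Fin d) (Fin d) F) (a : Fin m) (j : Fin (d + m)) :
    ext m A (finSumFinEquiv (Sum.inr a)) j = if finSumFinEquiv (Sum.inr a) = j then 1 else 0 := by
  obtain ⟨y, rfl⟩ := (finSumFinEquiv (m := d) (n := m)).surjective j
  unfold ext
  rw [submatrix_apply, Equiv.symm_apply_apply, Equiv.symm_apply_apply]
  rcases y with b | b
  · rw [fromBlocks_apply₂₁, if_neg (fun h => by simpa using (finSumFinEquiv (m := d) (n := m)).injective h)]
    rfl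
  · rw [fromBlocks_apply₂₂, one_apply]
    congr 1
    simp only [EmbeddingLike.apply_eq_iff_eq, Sum.inr.injEq]

theorem ext_apply_of_right (A : Matrix (Fin d) (Fin d) F) (a : Fin m) (j : Fin (d + m)) :
    ext m A j (finSumFinEquiv (Sum.inr a)) = if j = finSumFinEquiv (Sum.inr a) then 1 else 0 := by
  obtain ⟨y, rfl⟩ := (finSumFinEquiv (m := d) (n := m)).surjective j
  unfold ext
  rw [submatrix_apply, Equiv.symm_apply_apply, Equiv.symm_apply_apply]
  rcases y with b | b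
  · rw [fromBlocks_apply₁₂, if_neg (fun h => by simpa using (finSumFinEquiv (m := d) (n := m)).injective h)]
    rfl
  · rw [fromBlocks_apply₂₂, one_apply]
    congr 1
    simp only [EmbeddingLike.apply_eq_iff_eq, Sum.inr.injEq]

variable [Fintype F]

/-- the matrices `[[A, B], [0, 1]]` as a submonoid -/
def hM (d m : ℕ) (F : Type*) [Field F] : Submonoid (SpecialLinearGroup (Fin (d + m)) F) where
  carrier := {g | (bl (g : Matrix (Fin (d + m)) (Fin (d + m)) F)).toBlocks₂₁ = 0 ∧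
    (bl (g : Matrix (Fin (d + m)) (Fin (d + m)) F)).toBlocks₂₂ = 1}
  one_mem' := ⟨bl_one₂₁, bl_one₂₂⟩
  mul_mem' {g h} hg hh := by
    refine ⟨bl_mul₂₁ hg.1 hh.1, ?_⟩
    have := bl_mul₂₂ (N := (h : Matrix (Fin (d + m)) (Fin (d + m)) F)) hg.1
    rw [hg.2, hh.2, mul_one] at this
    exact this

/-- the matrices `[[A, B], [0, 1]]` -/
def hS (d m : ℕ) (F : Type*) [Field F] [Finite F] : Subgroup (SpecialLinearGroup (Fin (d + m)) F) :=
  { hM d m F with
    inv_mem' := by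
      intro g hg
      have h1 : g⁻¹ = g ^ (orderOf g - 1) := by
        rw [inv_eq_iff_mul_eq_one, ← pow_succ', Nat.sub_add_cancel (orderOf_pos g),
          pow_orderOf_eq_one]
      change g⁻¹ ∈ hM d m F
      rw [h1]
      exact Submonoid.pow_mem _ hg _ }

/-- the projection to `SL_d` -/
def piS (d m : ℕ) (F : Type*) [Field F] [Finite F] : hS d m F →* SpecialLinearGroup (Fin d) F where
  toFun g := ⟨(bl (g.1 : Matrix (Fin (d + m)) (Fin (d + m)) F)).toBlocks₁₁, by
    rw [det_of_bl g.2.1 g.2.2]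
    exact g.1.2⟩
  map_one' := Subtype.ext bl_one₁₁
  map_mul' g h := Subtype.ext (bl_mul₁₁ h.2.1)

theorem piS_surjective : Function.Surjective (piS d m F) := by
  intro A
  refine ⟨⟨extSL m A, ?_, ?_⟩, ?_⟩
  · change (bl (ext m A.1)).toBlocks₂₁ = 0
    rw [bl_ext, toBlocks_fromBlocks₂₁]
  · change (bl (ext m A.1)).toBlocks₂₂ = 1
    rw [bl_ext, toBlocks_fromBlocks₂₂]
  · apply Subtype.ext
    change (bl (ext m A.1)).toBlocks₁₁ = A.1
    rw [bl_ext, toBlocks_fromBlocks₁₁]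

theorem conj_perm_apply {n : ℕ} (σ : Equiv.Perm (Fin n)) (M : Matrix (Fin n) (Fin n) F) (i j : Fin n) :
    (((permGL F n σ : GL (Fin n) F) : Matrix (Fin n) (Fin n) F) * M *
      (((permGL F n σ)⁻¹ : GL (Fin n) F) : Matrix (Fin n) (Fin n) F)) i j = M (σ⁻¹ i) (σ⁻¹ j) := by
  rw [← map_inv, coe_permGL, coe_permGL, PEquiv.toMatrix_toPEquiv_mul, PEquiv.mul_toMatrix_toPEquiv, inv_inv,
    submatrix_submatrix]
  rfl

open Classical in
/-- **The Sylow condition.** -/
theorem sylow_cond (r : ℕ) [Fact r.Prime] [CharP F r] (P : Sylow r (SpecialLinearGroup (Fin (d + m)) F)) :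
    ∃ Q : Sylow r (SpecialLinearGroup (Fin d) F), ∀ q ∈ (Q : Subgroup (SpecialLinearGroup (Fin d) F)),
      ∃ h : hS d m F, (h : SpecialLinearGroup (Fin (d + m)) F) ∈ (P : Subgroup _) ∧ piS d m F h = q := by
  obtain ⟨S, hS⟩ := exists_sylow_sl (F := F) (d + m) r
  obtain ⟨S', hS'⟩ := exists_sylow_sl (F := F) d r
  obtain ⟨g, rfl⟩ := MulAction.exists_smul_eq (SpecialLinearGroup (Fin (d + m)) F) S P
  obtain ⟨b₁, hb₁, σ, b₂, hb₂, hg⟩ := bruhat (SpecialLinearGroup.toGL g)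
  -- sorting
  let f : Fin d → Fin (d + m) := fun a => σ⁻¹ (finSumFinEquiv (Sum.inl a))
  have hf : Function.Injective f := fun a b h => by
    have h1 := (finSumFinEquiv (m := d) (n := m)).injective ((σ⁻¹).injective h)
    exact Sum.inl_injective h1
  let τ : Equiv.Perm (Fin d) := Tuple.sort f
  have hτ : StrictMono (f ∘ τ) := (Tuple.monotone_sort f).strictMono_of_injective (hf.comp τ.injective)
  -- the blocks of `b₁`
  have hb₁' := inv_mem hb₁
  have u1 := bl_upper hb₁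
  have u2 := bl_upper hb₁'
  have m1 : (b₁ : Matrix (Fin (d + m)) (Fin (d + m)) F) * ((b₁⁻¹ : GL (Fin (d + m)) F) :
      Matrix (Fin (d + m)) (Fin (d + m)) F) = 1 := by rw [← Units.val_mul, mul_inv_cancel, Units.val_one]
  have m2 : ((b₁⁻¹ : GL (Fin (d + m)) F) : Matrix (Fin (d + m)) (Fin (d + m)) F) *
      (b₁ : Matrix (Fin (d + m)) (Fin (d + m)) F) = 1 := by rw [← Units.val_mul, inv_mul_cancel, Units.val_one]
  let A : GL (Fin d) F := ⟨(bl (b₁ : Matrix (Fin (d + m)) (Fin (d + m)) F)).toBlocks₁₁,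
    (bl ((b₁⁻¹ : GL (Fin (d + m)) F) : Matrix (Fin (d + m)) (Fin (d + m)) F)).toBlocks₁₁,
    by rw [← bl_mul₁₁ u2, m1, bl_one₁₁], by rw [← bl_mul₁₁ u1, m2, bl_one₁₁]⟩
  refine ⟨S'.mapSurjective (conjSL_surjective (A * permGL F d τ)), fun q hq => ?_⟩
  obtain ⟨u, hu, rfl⟩ := hq
  rw [hS'] at hu
  set v := conjSL (permGL F d τ) u with hv
  -- the element of `H`
  let s : SpecialLinearGroup (Fin (d + m)) F := conjSL b₁ (extSL m v)
  have e21 : (bl (ext m v.1)).toBlocks₂₁ = 0 := by rw [bl_ext, toBlocks_fromBlocks₂₁]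
  have s21 : (bl (s : Matrix (Fin (d + m)) (Fin (d + m)) F)).toBlocks₂₁ = 0 :=
    bl_mul₂₁ (bl_mul₂₁ u1 e21) u2
  have s22 : (bl (s : Matrix (Fin (d + m)) (Fin (d + m)) F)).toBlocks₂₂ = 1 := by
    change (bl ((b₁ : Matrix (Fin (d + m)) (Fin (d + m)) F) * ext m v.1 * ((b₁⁻¹ : GL (Fin (d + m)) F) :
      Matrix (Fin (d + m)) (Fin (d + m)) F))).toBlocks₂₂ = 1
    rw [bl_mul₂₂ (bl_mul₂₁ u1 e21), bl_mul₂₂ u1, bl_ext, toBlocks_fromBlocks₂₂, mul_one, ← bl_mul₂₂ u1, m1, bl_one₂₂]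
  refine ⟨⟨s, s21, s22⟩, ?_, ?_⟩
  · -- `s ∈ P`
    change s ∈ ((g • S : Sylow r _) : Subgroup _)
    rw [Sylow.smul_def, Sylow.pointwise_smul_def, Subgroup.mem_pointwise_smul_iff_inv_smul_mem,
      ← map_inv, MulAut.smul_def, MulAut.conj_apply, inv_inv, hS]
    have key : IsUni (((permGL F (d + m) σ)⁻¹ * SpecialLinearGroup.toGL (extSL m v) * permGL F (d + m) σ :
        GL (Fin (d + m)) F) : Matrix (Fin (d + m)) (Fin (d + m)) F) := by
      intro i j hij
      have e1 : (((permGL F (d + m) σ)⁻¹ * SpecialLinearGroup.toGL (extSL m v) * permGL F (d + m) σ :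
        GL (Fin (d + m)) F) : Matrix (Fin (d + m)) (Fin (d + m)) F) i j = ext m v.1 (σ i) (σ j) := by
        have := conj_perm_apply (F := F) σ⁻¹ (ext m v.1) i j
        rw [map_inv, inv_inv, inv_inv] at this
        exact this
      rw [e1]
      obtain ⟨x, hx⟩ := (finSumFinEquiv (m := d) (n := m)).surjective (σ i)
      obtain ⟨y, hy⟩ := (finSumFinEquiv (m := d) (n := m)).surjective (σ j)
      rcases x with a | a
      · rcases y with b | b
        · rw [← hx, ← hy, ext_apply_inl]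
          have e2 : (v : Matrix (Fin d) (Fin d) F) a b = (u : Matrix (Fin d) (Fin d) F) (τ⁻¹ a) (τ⁻¹ b) :=
            conj_perm_apply (F := F) τ u.1 a b
          have hi : i = f a := by
            change i = σ⁻¹ _
            rw [hx, perm_inv_apply]
          have hj : j = f b := by
            change j = σ⁻¹ _
            rw [hy, perm_inv_apply]
          have hab : τ⁻¹ b ≤ τ⁻¹ a := by
            apply hτ.le_iff_le.1
            change f (τ (τ⁻¹ b)) ≤ f (τ (τ⁻¹ a))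
            have e5 : ∀ c : Fin d, τ (τ⁻¹ c) = c := fun c => τ.apply_symm_apply c
            rw [e5, e5, ← hi, ← hj]
            exact hij
          change (v : Matrix (Fin d) (Fin d) F) a b = _
          rw [e2, hu _ _ hab]
          congr 1
          rw [hi, hj, hf.eq_iff, τ⁻¹.injective.eq_iff]
        · rw [← hy, ext_apply_of_right, hy]
          congr 1
          rw [σ.injective.eq_iff]
      · rw [← hx, ext_apply_of_left, hx]
        congr 1
        rw [σ.injective.eq_iff]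
    have key2 := isUni_conj (inv_mem hb₂) key
    have e3 : SpecialLinearGroup.toGL (g⁻¹ * s * g) = b₂⁻¹ * ((permGL F (d + m) σ)⁻¹ *
        SpecialLinearGroup.toGL (extSL m v) * permGL F (d + m) σ) * b₂⁻¹⁻¹ := by
      rw [map_mul, map_mul, map_inv, hg, toGL_conjSL]
      group
    rw [← e3] at key2
    exact key2
  · -- `π s = q`
    rw [conjSL_mul, ← hv]
    apply Subtype.ext
    change (bl ((b₁ : Matrix (Fin (d + m)) (Fin (d + m)) F) * ext m v.1 * ((b₁⁻¹ : GL (Fin (d + m)) F) :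
      Matrix (Fin (d + m)) (Fin (d + m)) F))).toBlocks₁₁ = _
    rw [bl_mul₁₁ u2, bl_mul₁₁ e21, bl_ext, toBlocks_fromBlocks₁₁]
    rfl

end blk

section main

variable {F : Type*} [Field F] [Fintype F] {r : ℕ} [Fact r.Prime] [CharP F r] {p : ℕ} [Fact p.Prime]

theorem good_sl_of_le {n d : ℕ} (hdn : d ≤ n) (h : Good p r (SpecialLinearGroup (Fin d) F)) :
    Good p r (SpecialLinearGroup (Fin n) F) := by
  obtain ⟨m, rfl⟩ := Nat.exists_eq_add_of_le hdn
  exact Good.of_sub (hS d m F) (piS d m F) piS_surjective (sylow_cond r) h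

theorem card_center_dvd (n : ℕ) (hn : 0 < n) :
    Nat.card (Subgroup.center (SpecialLinearGroup (Fin n) F)) ∣ Fintype.card F - 1 := by
  have : NeZero n := ⟨hn.ne'⟩
  have h1 := Nat.card_congr (SpecialLinearGroup.center_equiv_rootsOfUnity (n := Fin n) (R := F)).toEquiv
  have h2 : Fintype.card F - 1 = Nat.card Fˣ := by rw [Nat.card_units, Nat.card_eq_fintype_card]
  rw [h1, h2]
  exact Subgroup.card_subgroup_dvd_card _

end main

/-- **[TA-PSL]** -/
theorem good_psl {F : Type} [Field F] [Fintype F] {r : ℕ} [Fact r.Prime] [CharP F r] {p : ℕ} [Fact p.Prime]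
    {n d : ℕ} (hn : 3 ≤ n) (_hd : 2 ≤ d) (hdn : d ≤ n) (hp : ¬ p ∣ Fintype.card F - 1)
    (h : Good p r (SpecialLinearGroup (Fin d) F)) : Good p r (ProjectiveSpecialLinearGroup (Fin n) F) := by
  have h1 := good_sl_of_le hdn h
  refine Good.quot (QuotientGroup.mk' (Subgroup.center (SpecialLinearGroup (Fin n) F)))
    (QuotientGroup.mk'_surjective _) ?_ h1
  rw [QuotientGroup.ker_mk']
  exact fun hd => hp (hd.trans (card_center_dvd n (by omega)))

end Cfsg.Agent.H583.EP
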